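import Cfsg.Agent.H305.PG.Hom
import Cfsg.Agent.H493.F4Tor
import Cfsg.Agent.H415.PG.Def
import Cfsg.Agent.S1072

/-!
# `²F₄(q)` in cross characteristic: elements of prime order dividing `q² - q + 1` have fixed vectors (helper305)
-/

set_option autoImplicit false
set_option linter.unusedSectionVars false
set_option linter.unusedVariables false

namespace Cfsg.Agent.H305.PG

open Cfsg Cfsg.Lie Cfsg.Agent.ChevalleyStructure Cfsg.Agent.ChevalleyStructure.Elts
open Cfsg.Agent.H493.F4End Cfsg.Agent.H420.PG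
open Cfsg.Agent.AGraded
open Matrix Matrix.SpecialLinearGroup
open Cfsg.Agent.H992.E8X.Su3 Cfsg.Agent.H992.RkOne
open Cfsg.Agent.H992.E8X (center_pow exists_cc)
open Cfsg.Agent.GpExc.Field (emb emb_injective)
open scoped commutatorElement

universe u v w

/-! ### Arithmetic -/

section Arith

theorem arith {q s : ℕ} (hq : 2 ≤ q) (hs : s.Prime) (h3 : s ≠ 3) (hd : s ∣ q ^ 2 - q + 1) :
    s ∣ q ^ 3 + 1 ∧ ¬ s ∣ q ∧ Nat.Coprime s (q ^ 2 - 1) := by
  have hQQ : q ≤ q ^ 2 := by nlinarith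
  have hd' : (s : ℤ) ∣ (q : ℤ) ^ 2 - q + 1 := by
    have : ((q ^ 2 - q + 1 : ℕ) : ℤ) = (q : ℤ) ^ 2 - q + 1 := by
      rw [Nat.cast_add, Nat.cast_sub hQQ]
      push_cast
      ring
    rw [← this]
    exact_mod_cast hd
  have hsp : Prime (s : ℤ) := Nat.prime_iff_prime_int.1 hs
  refine ⟨?_, ?_, ?_⟩
  · have h1 : (s : ℤ) ∣ (q : ℤ) ^ 3 + 1 := by
      have e : (q : ℤ) ^ 3 + 1 = ((q : ℤ) ^ 2 - q + 1) * (q + 1) := by ring
      rw [e]
      exact Dvd.dvd.mul_right hd' _
    exact_mod_cast h1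
  · intro h
    have h1 : (s : ℤ) ∣ q := by exact_mod_cast h
    have h2 : (s : ℤ) ∣ 1 := by
      have e : (1 : ℤ) = ((q : ℤ) ^ 2 - q + 1) - q * (q - 1) := by ring
      rw [e]
      exact dvd_sub hd' (Dvd.dvd.mul_right h1 _)
    exact hsp.not_isUnit (isUnit_of_dvd_one h2)
  · rw [Nat.Prime.coprime_iff_not_dvd hs]
    intro h
    have h1 : (s : ℤ) ∣ (q : ℤ) ^ 2 - 1 := by
      have : ((q ^ 2 - 1 : ℕ) : ℤ) = (q : ℤ) ^ 2 - 1 := by
        rw [Nat.cast_sub (by nlinarith)]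
        push_cast
        ring
      rw [← this]
      exact_mod_cast h
    have e : (q : ℤ) ^ 2 - 1 = (q - 1) * (q + 1) := by ring
    rw [e] at h1
    rcases hsp.dvd_or_dvd h1 with h2 | h2
    · have h4 : (s : ℤ) ∣ 1 := by
        have e : (1 : ℤ) = ((q : ℤ) ^ 2 - q + 1) - (q - 1) * q := by ring
        rw [e]
        exact dvd_sub hd' (Dvd.dvd.mul_right h2 _)
      exact hsp.not_isUnit (isUnit_of_dvd_one h4)
    · have h4 : (s : ℤ) ∣ 3 := by
        have e : (3 : ℤ) = ((q : ℤ) ^ 2 - q + 1) - (q + 1) * (q - 2) := by ring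
        rw [e]
        exact dvd_sub hd' (Dvd.dvd.mul_right h2 _)
      have h5 : s ∣ 3 := by exact_mod_cast h4
      exact h3 ((Nat.prime_dvd_prime_iff_eq hs Nat.prime_three).1 h5)

theorem arith2 {m : ℕ} (hm : 1 ≤ m) : 1 + 2 * 2 ^ m < 2 ^ (2 * m + 1) - 1 := by
  obtain ⟨j, rfl⟩ : ∃ j, m = j + 1 := ⟨m - 1, by omega⟩
  have h1 : 2 ^ (2 * (j + 1) + 1) = 8 * (2 ^ j * 2 ^ j) := by
    rw [show 2 * (j + 1) + 1 = j + j + 3 by ring, pow_add, pow_add]
    ring
  have h2 : 2 ^ (j + 1) = 2 * 2 ^ j := by rw [pow_succ]; ring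
  have h3 : 1 ≤ 2 ^ j := Nat.one_le_two_pow
  rw [h1, h2]
  have : 2 ^ j ≤ 2 ^ j * 2 ^ j := Nat.le_mul_of_pos_left _ (by omega)
  omega

end Arith

/-! ### The image of an element of order `s` -/

section
variable {k : Type u} [Field k] [CharP k 2] {m : ℕ}
variable {E : Type v} [Field E] {π : SpecialLinearGroup (Fin 3) E →* ↥(chevF4.group k)}

theorem io_ne (hπ : ∀ A, π A ∈ L k) (hker : π.ker ≤ Subgroup.center (SpecialLinearGroup (Fin 3) E)) {s : ℕ}
    (hs : s.Prime) (h3 : s ≠ 3) {t : SpecialLinearGroup (Fin 3) E} (ht : t ^ s = 1) (h : P2 k m (π t) = 1) :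
    t = 1 := by
  have hcop : Nat.Coprime s 3 := (Nat.coprime_primes hs Nat.prime_three).2 h3
  have hcomm : ∀ B, Commute (π t) (π B) := by
    intro B
    unfold P2 at h
    have h1 : π t = (tau k m (π t))⁻¹ := eq_inv_of_mul_eq_one_left h
    rw [h1]
    exact (L_comm (m := m) (hπ B) (hπ t)).symm.inv_left
  have hcen : ∀ B, ⁅t, B⁆ ∈ Subgroup.center (SpecialLinearGroup (Fin 3) E) := by
    intro B
    apply hker
    rw [MonoidHom.mem_ker, map_commutatorElement]
    exact commutatorElement_eq_one_iff_commute.2 (hcomm B)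
  have hpow : ∀ B, ∀ m : ℕ, t ^ m * B = ⁅t, B⁆ ^ m * (B * t ^ m) := by
    intro B m
    induction m with
    | zero => simp
    | succ m ih =>
      have hz := Subgroup.mem_center_iff.1 (hcen B)
      have e1 : t * B = ⁅t, B⁆ * (B * t) := by rw [commutatorElement_def]; group
      have e2 : ⁅t, B⁆ ^ m ∈ Subgroup.center (SpecialLinearGroup (Fin 3) E) := Subgroup.pow_mem _ (hcen B) m
      calc t ^ (m + 1) * B = t * (t ^ m * B) := by rw [pow_succ']; group
        _ = (t * ⁅t, B⁆ ^ m) * (B * t ^ m) := by rw [ih]; group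
        _ = ⁅t, B⁆ ^ m * (t * B) * t ^ m := by rw [Subgroup.mem_center_iff.1 e2 t]; group
        _ = ⁅t, B⁆ ^ m * (⁅t, B⁆ * (B * t)) * t ^ m := by rw [← e1]
        _ = _ := by rw [pow_succ, pow_succ']; group
  have hone : ∀ B, Commute t B := by
    intro B
    have h1 := hpow B s
    rw [ht, one_mul, mul_one] at h1
    have h2 : ⁅t, B⁆ ^ s = 1 := (mul_eq_right.1 h1.symm)
    have h4 := center_pow (hcen B)
    have h5 : orderOf ⁅t, B⁆ ∣ 1 := by
      rw [← hcop]
      exact Nat.dvd_gcd (orderOf_dvd_of_pow_eq_one h2) (orderOf_dvd_of_pow_eq_one h4)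
    exact commutatorElement_eq_one_iff_commute.1 (orderOf_eq_one_iff.1 (Nat.dvd_one.1 h5))
  have hct : t ∈ Subgroup.center (SpecialLinearGroup (Fin 3) E) :=
    Subgroup.mem_center_iff.2 fun B => (hone B).eq.symm
  have h5 : orderOf t ∣ 1 := by
    rw [← hcop]
    exact Nat.dvd_gcd (orderOf_dvd_of_pow_eq_one ht) (orderOf_dvd_of_pow_eq_one (center_pow hct))
  exact orderOf_eq_one_iff.1 (Nat.dvd_one.1 h5)

end

/-! ### The fixed points of `τ` embed into `²F₄(q)` -/

section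

theorem exists_comap {A : Type u} [Group A] (H S : Subgroup A) :
    ∃ j : ↥(S.comap H.subtype) →* ↥S, Function.Injective j := by
  refine ⟨(H.subtype.comp (S.comap H.subtype).subtype).codRestrict S fun x => x.2, ?_⟩
  intro a b hab
  have h : ((a : ↥H) : A) = ((b : ↥H) : A) := congrArg (fun x : ↥S => (x : A)) hab
  exact Subtype.ext (Subtype.ext h)

variable {F : Type u} [Field F] [Fintype F] [CharP F 2] {k : Type u} [Field k] [IsAlgClosed k] [CharP k 2]
  (f : F →+* k) {m : ℕ} (hF : Fintype.card F = 2 ^ (2 * m + 1))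

include f hF in
theorem exists_fix_hom : ∃ θ : ↥(fixG k m) →* ↥(twistedF4 F (2 ^ m)), Function.Injective θ := by
  obtain ⟨z, hz⟩ := Cfsg.Agent.H493.F4Lang.lang_ste m (n24 k)
  let S : Subgroup ↥(chevF4.group F) := (twistedF4 F (2 ^ m)).comap (chevF4.group F).subtype
  let e : ↥S →* ↥(chevF4.group k) := (emb hD f).comp S.subtype
  have he : Function.Injective e := (emb_injective hD f).comp S.subtype_injective
  have hfix : ∀ g : ↥(fixG k m), z * g.1 * z⁻¹ ∈ e.range := by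
    intro g
    have h1 : ste k m z = z * n24 k := by rw [hz]; group
    have h2 : n24 k * ste k m g.1 * (n24 k)⁻¹ = g.1 := g.2
    have h3 : ste k m (z * g.1 * z⁻¹) = z * g.1 * z⁻¹ := by
      rw [map_mul, map_mul, map_inv, h1]
      calc z * n24 k * ste k m g.1 * (z * n24 k)⁻¹ = z * (n24 k * ste k m g.1 * (n24 k)⁻¹) * z⁻¹ := by group
        _ = _ := by rw [h2]
    obtain ⟨x, hx, hxm⟩ := Cfsg.Agent.H493.F4Tor.exists_fin f hF h3
    exact ⟨⟨x, hxm⟩, hx⟩
  let ψ : ↥(fixG k m) →* ↥e.range := ((MulAut.conj z).toMonoidHom.comp (fixG k m).subtype).codRestrict _ hfix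
  have hψ : Function.Injective ψ := by
    intro a b hab
    have h1 : z * a.1 * z⁻¹ = z * b.1 * z⁻¹ := congrArg Subtype.val hab
    exact Subtype.ext (by simpa using h1)
  obtain ⟨j, hj⟩ := exists_comap (chevF4.group F) (twistedF4 F (2 ^ m))
  exact ⟨j.comp ((MonoidHom.ofInjective he).symm.toMonoidHom.comp ψ),
    hj.comp ((MonoidHom.ofInjective he).symm.injective.comp hψ)⟩

end

/-! ### The theorem -/

section
variable {F : Type u} [Field F] [Fintype F] [CharP F 2] {k : Type u} [Field k] [IsAlgClosed k] [CharP k 2]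
  (fF : F →+* k) {E : Type} [Field E] [Fintype E] [CharP E 2] (f : E →+* k) (σ : E →+* E)

include fF f in
/-- **The main step.** -/
theorem core {m : ℕ} (hm : 1 ≤ m) (hF : Fintype.card F = 2 ^ (2 * m + 1))
    (hσ : ∀ x : E, σ x = x ^ 2 ^ (2 * m + 1)) (hEc : Fintype.card E = (2 ^ (2 * m + 1)) ^ 2)
    {s : ℕ} (hs : s.Prime) (h3 : s ≠ 3) (hd : s ∣ (2 ^ (2 * m + 1)) ^ 2 - 2 ^ (2 * m + 1) + 1) :
    ∃ x : ↥(twistedF4 F (2 ^ m)), orderOf x = s ∧ ∀ (K : Type v) [Field K] (V : Type w) [AddCommGroup V] [Module K V]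
      (ρ : ↥(twistedF4 F (2 ^ m)) →* Module.End K V), Function.Injective ρ → (2 : K) ≠ 0 →
        ∃ v : V, v ≠ 0 ∧ ρ x v = v := by
  classical
  have : Fact (Nat.Prime 2) := ⟨Nat.prime_two⟩
  obtain ⟨q, hq⟩ : ∃ q, q = 2 ^ (2 * m + 1) := ⟨_, rfl⟩
  rw [← hq] at hd hEc
  have hq2 : 2 ≤ q := by
    rw [hq, pow_succ]
    have : 1 ≤ 2 ^ (2 * m) := Nat.one_le_two_pow
    omega
  obtain ⟨hd3, hsq, hcop⟩ := arith hq2 hs h3 hd
  have hsp : s ≠ 2 := fun h => hsq (h ▸ hq ▸ dvd_pow_self 2 (by omega))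
  have hE8 : ∀ a : E, a ^ (2 ^ (2 * m + 1)) ^ 2 = a := by
    intro a
    rw [← hq, ← hEc, FiniteField.pow_card]
  have hσσ : ∀ x : E, σ (σ x) = x := fun x => by
    rw [hσ, hσ, ← pow_mul, ← pow_two]
    exact hE8 x
  have hσq : ∀ x : E, σ x = x ^ q := fun x => by rw [hσ, hq]
  obtain ⟨π, h1, h2, hker⟩ := exists_pi (k := k) f
  have hπ : ∀ A, π A ∈ L k := pi_mem_L f h2
  have h4 := fun x : SUJ σ => T_two_pi' (k := k) (m := m) f h1 hσ x
  obtain ⟨θ, hθ⟩ := exists_fix_hom (k := k) fF hF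
  let J : ↥(SUJ σ) →* ↥(fixG k m) := jj m hπ h4
  have hJ : ∀ x : SUJ σ, (J x : ↥(chevF4.group k)) = P2 k m (π x.1) := fun x => rfl
  -- the element of order `s`
  obtain ⟨t, hts, ht1⟩ := exists_order (E := E) hEc hσq hs hd3
  have hJt : J t ≠ 1 := by
    intro h
    apply ht1
    have h5 : P2 k m (π t.1) = 1 := by rw [← hJ, h]; rfl
    exact Subtype.ext (io_ne hπ hker hs h3 (congrArg Subtype.val hts) h5)
  have hx : orderOf (θ (J t)) = s := by
    have : Fact s.Prime := ⟨hs⟩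
    apply orderOf_eq_prime
    · rw [← map_pow, ← map_pow, hts, map_one, map_one]
    · intro h
      exact hJt (hθ (by rw [h, map_one]))
  refine ⟨θ (J t), hx, ?_⟩
  intro K _ V _ _ ρ hρ hK
  by_contra hcon
  push Not at hcon
  -- the sum over `T` vanishes
  have hsum : ∀ v : V, ∑ i ∈ Finset.range s, ρ ((θ.comp J) (t ^ i)) v = 0 := by
    intro v
    by_contra h0
    refine hcon _ h0 ?_
    have e : ∀ i, ρ (θ (J t)) (ρ ((θ.comp J) (t ^ i)) v) = ρ ((θ.comp J) (t ^ (i + 1))) v := by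
      intro i
      rw [← Module.End.mul_apply, ← map_mul]
      show ρ ((θ.comp J) t * (θ.comp J) (t ^ i)) v = _
      rw [← map_mul, ← pow_succ']
    rw [map_sum, Finset.sum_congr rfl fun i _ => e i]
    have h5 := Finset.sum_range_succ (fun i => ρ ((θ.comp J) (t ^ i)) v) s
    have h6 := Finset.sum_range_succ' (fun i => ρ ((θ.comp J) (t ^ i)) v) s
    rw [h5] at h6
    simp only [hts, pow_zero] at h6
    exact (add_right_cancel h6).symm
  -- elements of order `s` are not in the Borel subgroup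
  have hEs : ∀ x : E, x ^ s = 1 → x = 1 := by
    intro x hx
    have hx0 : x ≠ 0 := by
      rintro rfl
      rw [zero_pow hs.ne_zero] at hx
      exact zero_ne_one hx
    have h5 : x ^ (q ^ 2 - 1) = 1 := by rw [← hEc]; exact FiniteField.pow_card_sub_one_eq_one x hx0
    have h6 := Nat.dvd_gcd (orderOf_dvd_of_pow_eq_one hx) (orderOf_dvd_of_pow_eq_one h5)
    rw [Nat.Coprime.gcd_eq_one hcop] at h6
    exact orderOf_eq_one_iff.1 (Nat.dvd_one.1 h6)
  have hT : ∀ i ∈ Finset.range s, i ≠ 0 → ∃ v ∈ U σ, ∃ c ∈ C σ, ∃ u ∈ U σ, t ^ i = v * c * nn σ * u := by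
    intro i hi hi0
    have hti : t ^ i ≠ 1 := by
      intro h5
      have h6 : orderOf t = s := by
        have : Fact s.Prime := ⟨hs⟩
        exact orderOf_eq_prime hts ht1
      have h7 := orderOf_dvd_of_pow_eq_one h5
      rw [h6] at h7
      exact absurd (Nat.le_of_dvd (Nat.pos_of_ne_zero hi0) h7) (not_le.2 (Finset.mem_range.1 hi))
    have htis : (t ^ i) ^ s = 1 := by rw [← pow_mul, mul_comm i s, pow_mul, hts, one_pow]
    exact (bruhat hσσ (t ^ i)).resolve_left (not_borel (p := 2) hs hsp htis hti hEs)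
  -- a generator of the torus
  obtain ⟨b, hb⟩ := IsCyclic.exists_generator (α := Eˣ)
  obtain ⟨c, hc, hcc⟩ := exists_cc (σ := σ) hσσ b.ne_zero
  set β : E := ((b : E) * σ b)⁻¹ with hβ
  have hβ0 : β ≠ 0 := inv_ne_zero (mul_ne_zero b.ne_zero (by simp))
  set l : E := β ^ (1 + 2 * 2 ^ m) with hl
  have hl1 : l ≠ 1 := by
    intro h5
    have h6 : b ^ ((q + 1) * (1 + 2 * 2 ^ m)) = 1 := by
      apply Units.ext
      rw [Units.val_pow_eq_pow_val, Units.val_one]
      have h7 : β⁻¹ ^ (1 + 2 * 2 ^ m) = 1 := by rw [inv_pow, ← hl, h5, inv_one]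
      rw [hβ, inv_inv, hσq] at h7
      rw [pow_mul, ← h7]
      congr 1
      rw [pow_succ, mul_comm]
    have h8 := orderOf_dvd_of_pow_eq_one h6
    rw [orderOf_eq_card_of_forall_mem_zpowers hb, Nat.card_units, Nat.card_eq_fintype_card, hEc] at h8
    have e : q ^ 2 - 1 = (q + 1) * (q - 1) := by
      rw [← Nat.sq_sub_sq q 1, one_pow]
    rw [e] at h8
    have h9 := Nat.dvd_of_mul_dvd_mul_left (by positivity) h8
    have h10 := Nat.le_of_dvd (by positivity) h9
    have h11 := arith2 hm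
    rw [← hq] at h11
    omega
  -- the elements `r`, `y₁`, `y₂`
  choose Y1 hY1 CC hCC hYC using fun d : E => exists_y1 (k := k) (m := m) f hE8 d
  let r : E → ↥(twistedF4 F (2 ^ m)) := fun d => θ ⟨rr m f d, rr_fix f hE8 d⟩
  let z1 : E → ↥(twistedF4 F (2 ^ m)) := fun d => θ ⟨Y1 d, hY1 d⟩
  let z2 : E → ↥(twistedF4 F (2 ^ m)) := fun d => θ ⟨y2 m f d, y2_fix f hE8 d⟩
  have hι : (Fintype.card E : K) ≠ 0 := by
    rw [hEc, hq]
    push_cast
    exact pow_ne_zero _ (pow_ne_zero _ hK)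
  have hUf : Finite (U σ) := inferInstance
  have hU : (Nat.card (U σ) : K) ≠ 0 := by
    obtain ⟨m, hm⟩ := (isPGroup_U (σ := σ) (p := 2)).exists_card_eq
    rw [hm]
    push_cast
    exact pow_ne_zero _ hK
  have hres := cross' ρ (θ.comp J) hι r z1 z2 (U σ) (Z σ) (C σ) Z_le_U hU
    (h21 := by
      intro x hxU hxZ
      obtain ⟨t', ht'⟩ := pi_U (k := k) (m := m) f h1 hσ hxU
      have ha : x.1.1 0 1 ≠ 0 := by
        intro h0
        apply hxZ
        refine ⟨hxU, h0, ?_⟩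
        rw [(U_entries hxU).1, h0, map_zero, neg_zero]
      refine ⟨fun d => x.1.1 0 1 * d, (Equiv.mulLeft₀ _ ha).bijective, fun d => ?_⟩
      have h5 := y2_shift (k := k) (m := m) f hE8 (x.1.1 0 1) d t'
      rw [← ht'] at h5
      show (θ _)⁻¹ * θ (J x) * θ _ = θ (J x) * θ _
      rw [← map_inv, ← map_mul, ← map_mul, ← map_mul]
      exact congrArg θ (Subtype.ext h5))
    (h22 := by
      intro x hx d
      have h5 := y2_shift_z (k := k) (m := m) f hE8 d (f (x.1.1 0 2))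
      rw [← pi_Z f h1 hx] at h5
      show (θ _)⁻¹ * θ (J x) * θ _ = θ (J x)
      rw [← map_inv, ← map_mul, ← map_mul]
      exact congrArg θ (Subtype.ext h5))
    (h11 := by
      intro x hx hx1
      have hb0 : x.1.1 0 2 ≠ 0 := by
        intro h0
        apply hx1
        have h5 := Z_param hx
        rw [h0] at h5
        apply Subtype.ext
        rw [h5]
        apply Subtype.ext
        show 1 + single 0 2 (0 : E) = 1
        simp
      refine ⟨fun d => x.1.1 0 2 * d, (Equiv.mulLeft₀ _ hb0).bijective, fun d => ?_⟩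
      have h6 := h4 x
      rw [pi_Z f h1 hx] at h6
      have h5 := y1_shift (k := k) (m := m) f (hY1 d) (hCC d) (hYC d) (x.1.1 0 2) h6
      rw [← pi_Z f h1 hx] at h5
      show (θ _)⁻¹ * θ (J x) * θ _ = θ (J x) * θ _
      rw [← map_inv, ← map_mul, ← map_mul, ← map_mul]
      exact congrArg θ (Subtype.ext h5))
    (hr1 := by
      intro i d
      show θ _ * θ _ = θ _ * θ _
      rw [← map_mul, ← map_mul]
      exact congrArg θ (Subtype.ext (rr_y1 f (hCC d) (hYC d) i).eq))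
    (hr2 := by
      intro i d
      show θ _ * θ _ = θ _ * θ _
      rw [← map_mul, ← map_mul]
      exact congrArg θ (Subtype.ext (rr_y2 f i d).eq))
    (hrU := by
      intro i x hx
      obtain ⟨t', ht'⟩ := pi_U (k := k) (m := m) f h1 hσ hx
      have h5 := rr_w (k := k) (m := m) f i (f (x.1.1 0 1)) t'
      rw [← ht'] at h5
      show θ _ * θ (J x) = θ (J x) * θ _
      rw [← map_mul, ← map_mul]
      exact congrArg θ (Subtype.ext h5.eq))
    (hCU := fun c hc u hu => C_U hc hu) (hCC := fun a ha b hb => C_comm ha hb) (nn σ)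
    (hnC := fun c hc => nn_C hc) (Finset.range s) (fun i => t ^ i) 0 (Finset.mem_range.2 hs.pos) (pow_zero t) hT hsum
    hc
    (hcr := by
      intro i
      have h5 : ∀ d : E, (J (c⁻¹ * (nn σ * c * (nn σ)⁻¹)) : ↥(chevF4.group k)) * rr m f d *
          ((J (c⁻¹ * (nn σ * c * (nn σ)⁻¹)) : ↥(chevF4.group k)))⁻¹ = rr m f (l * d) := by
        intro d
        apply rr_conj f (J (c⁻¹ * (nn σ * c * (nn σ)⁻¹))).2
        intro d
        rw [hJ, hcc, pi_diag f h1, P2_hh ((map_ne_zero f).2 hβ0), hl, map_mul, map_pow]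
      refine ⟨(l - 1)⁻¹ * i, ?_⟩
      have h6 : l * ((l - 1)⁻¹ * i) = (l - 1)⁻¹ * i + i := by
        have h7 : l - 1 ≠ 0 := sub_ne_zero.2 hl1
        have h8 : (l - 1) * ((l - 1)⁻¹ * i) = i := mul_inv_cancel_left₀ h7 i
        linear_combination h8
      have h7 := h5 ((l - 1)⁻¹ * i)
      rw [h6, rr_add] at h7
      show θ (J _) * θ _ * (θ (J _))⁻¹ = θ _ * θ _
      rw [← map_inv, ← map_mul, ← map_mul, ← map_mul]
      exact congrArg θ (Subtype.ext h7))
  have hadd : ∀ i j, r (i + j) = r i * r j := by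
    intro i j
    show θ _ = θ _ * θ _
    rw [← map_mul]
    exact congrArg θ (Subtype.ext (rr_add f i j))
  have htriv := fun i v => trivial_of_ker ρ r hadd hres i v
  have h5 : ρ (r 1) = 1 := LinearMap.ext fun v => htriv 1 v
  have h6 : r 1 = 1 := hρ (by rw [h5, map_one])
  have h7 : (⟨rr m f 1, rr_fix f hE8 1⟩ : ↥(fixG k m)) = 1 := hθ (by rw [map_one]; exact h6)
  exact one_ne_zero (rr_ne f (congrArg Subtype.val h7))

end

/-- **Cross characteristic for `²F₄(q)`.** -/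
theorem fixT_tf4 {K : Type} [Field K] [Fintype K] {m : ℕ} (hm : 1 ≤ m) (hK : Fintype.card K = 2 ^ (2 * m + 1))
    {r t : ℕ} (hr : r.Prime) (hr2 : r ≠ 2) (ht : t.Prime) (ht3 : t ≠ 3) (htr : t ≠ r)
    (hd : t ∣ Fintype.card K ^ 2 - Fintype.card K + 1) :
    Cfsg.Agent.H415.PG3.FixT.{0, w} ↥(Cfsg.Lie.twistedF4 K (2 ^ m)) r t := by
  intro V _ _ _ _ ρ
  have : Fact r.Prime := ⟨hr⟩
  have : Fact (Nat.Prime 2) := ⟨Nat.prime_two⟩
  have hc2 : CharP K 2 := F4Fixed.charP_two hK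
  have hsimple : IsSimpleGroup ↥(twistedF4 K (2 ^ m)) := (S1072.result hm hK).1
  have h2 : (2 : ZMod r) ≠ 0 := by
    intro h0
    have h1 : ((2 : ℕ) : ZMod r) = 0 := by exact_mod_cast h0
    rw [ZMod.natCast_eq_zero_iff] at h1
    exact hr2 ((Nat.prime_dvd_prime_iff_eq hr Nat.prime_two).1 h1)
  have hck : CharP (AlgebraicClosure K) 2 := charP_of_injective_algebraMap (algebraMap K _).injective 2
  -- the field with `q ^ 2` elements
  let _ : Fintype (GaloisField 2 ((2 * m + 1) * 2)) := Fintype.ofFinite _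
  let _ : Algebra (ZMod 2) (AlgebraicClosure K) := ZMod.algebra _ 2
  rw [hK] at hd
  obtain ⟨x, hx, hfix⟩ := core (k := AlgebraicClosure K) (algebraMap K _) (E := GaloisField 2 ((2 * m + 1) * 2))
    ((IsAlgClosed.lift : GaloisField 2 ((2 * m + 1) * 2) →ₐ[ZMod 2] AlgebraicClosure K) : _ →+* AlgebraicClosure K)
    (iterateFrobenius _ 2 (2 * m + 1)) hm hK (fun x => iterateFrobenius_def _ _ _)
    (by rw [← Nat.card_eq_fintype_card, GaloisField.card 2 ((2 * m + 1) * 2) (by omega), ← pow_mul]) ht ht3 hd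
  refine ⟨x, hx, ?_⟩
  by_cases hi : Function.Injective ρ
  · let τ : ↥(twistedF4 K (2 ^ m)) →* Module.End (ZMod r) V :=
      { toFun := fun g => (ρ g).toLinearMap
        map_one' := by rw [map_one]; rfl
        map_mul' := fun a b => by rw [map_mul]; rfl }
    have hτ : Function.Injective τ := by
      intro a b hab
      apply hi
      exact LinearEquiv.toLinearMap_injective hab
    exact hfix (ZMod r) V τ hτ h2
  · -- trivial action
    have hk : ρ.ker = ⊤ := by
      rcases hsimple.eq_bot_or_eq_top_of_normal ρ.ker inferInstance with h | h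
      · exact absurd ((MonoidHom.ker_eq_bot_iff ρ).1 h) hi
      · exact h
    obtain ⟨v, hv⟩ := exists_ne (0 : V)
    refine ⟨v, hv, ?_⟩
    have : ρ x = 1 := by
      have : x ∈ ρ.ker := by rw [hk]; trivial
      exact this
    rw [this]
    rfl

end Cfsg.Agent.H305.PG
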